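import Mathlib

set_option autoImplicit false

namespace Cfsg.Agent.Lib.helper28.Crit

theorem exists_mulAut_hom_GL_aux (p : ℕ) [Fact p.Prime] (N : Type*) [CommGroup N] [Finite N]
    [Module (ZMod p) (Additive N)] (n : ℕ) (hcard : Nat.card N = p ^ n) :
    ∃ φ : MulAut N →* GL (Fin n) (ZMod p), Function.Injective φ := by
  have hfin : Finite (Additive N) := ‹Finite N›
  have hfr : Module.finrank (ZMod p) (Additive N) = n := by
    have h1 := Module.natCard_eq_pow_finrank (K := ZMod p) (V := Additive N)
    have h2 : Nat.card (Additive N) = p ^ n := hcard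
    rw [Nat.card_zmod, h2] at h1
    exact (Nat.pow_right_injective (Fact.out : p.Prime).two_le h1).symm
  let b : Module.Basis (Fin n) (ZMod p) (Additive N) :=
    Module.finBasisOfFinrankEq (ZMod p) (Additive N) hfr
  let L : MulAut N → (Additive N →ₗ[ZMod p] Additive N) := fun α =>
    AddMonoidHom.toZModLinearMap p (MonoidHom.toAdditive α.toMonoidHom)
  have hL : ∀ (α : MulAut N) (x : Additive N), L α x = Additive.ofMul (α (Additive.toMul x)) :=
    fun α x => rfl
  let M : MulAut N →* Matrix (Fin n) (Fin n) (ZMod p) :=
    { toFun := fun α => LinearMap.toMatrix b b (L α)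
      map_one' := by
        have : L 1 = LinearMap.id := by
          apply LinearMap.ext
          intro x
          rw [hL]
          rfl
        rw [this, LinearMap.toMatrix_id]
      map_mul' := fun α β => by
        have : L (α * β) = (L α).comp (L β) := by
          apply LinearMap.ext
          intro x
          rw [hL, LinearMap.comp_apply, hL, hL]
          rfl
        rw [this, LinearMap.toMatrix_comp b b b] }
  refine ⟨M.toHomUnits, ?_⟩
  intro α β h
  have h1 : M α = M β := by
    have := congrArg Units.val h
    rwa [MonoidHom.coe_toHomUnits, MonoidHom.coe_toHomUnits] at this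
  have h2 : L α = L β := (LinearMap.toMatrix b b).injective h1
  apply MulEquiv.ext
  intro x
  have h3 := congrArg (fun l : Additive N →ₗ[ZMod p] Additive N => l (Additive.ofMul x)) h2
  exact h3

/-- The automorphism group of an elementary abelian group of order `p ^ n` embeds into
`GL (Fin n) (ZMod p)`. -/
theorem exists_mulAut_hom_GL {N : Type*} [CommGroup N] [Finite N] (p n : ℕ) [Fact p.Prime]
    (hcard : Nat.card N = p ^ n) (hexp : ∀ x : N, x ^ p = 1) :
    ∃ φ : MulAut N →* GL (Fin n) (ZMod p), Function.Injective φ :=
  @exists_mulAut_hom_GL_aux p _ N _ _ (AddCommGroup.zmodModule (fun x => by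
    show Additive.ofMul (Additive.toMul x ^ p) = 0
    rw [hexp]; rfl)) n hcard

/-- A group with a self-centralising elementary abelian normal subgroup `N` of order `p ^ n`
whose index is at least the order of `GL (Fin n) (ZMod p)` has quotient by `N` isomorphic to
`GL (Fin n) (ZMod p)`. -/
theorem quot_equiv_GL {H : Type*} [Group H] [Finite H] (N : Subgroup H) [hN : N.Normal]
    (p n : ℕ) [Fact p.Prime] (hcard : Nat.card N = p ^ n) (hexp : ∀ x ∈ N, x ^ p = 1)
    (hcomm : ∀ x ∈ N, ∀ y ∈ N, x * y = y * x)
    (hcent : ∀ h : H, (∀ x ∈ N, h * x = x * h) → h ∈ N)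
    (hindex : Nat.card (GL (Fin n) (ZMod p)) ≤ N.index) :
    Nonempty (H ⧸ N ≃* GL (Fin n) (ZMod p)) := by
  letI : CommGroup ↥N :=
    { (inferInstance : Group ↥N) with
      mul_comm := fun a b => Subtype.ext (hcomm a a.2 b b.2) }
  obtain ⟨φ, hφ⟩ := exists_mulAut_hom_GL (N := ↥N) p n hcard
    (fun x => Subtype.ext (hexp x x.2))
  let ψ : H →* GL (Fin n) (ZMod p) := φ.comp (MulAut.conjNormal (H := N))
  have hker : N = ψ.ker := by
    ext g
    rw [MonoidHom.mem_ker]
    constructor
    · intro hg
      show φ (MulAut.conjNormal g) = 1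
      have : (MulAut.conjNormal g : MulAut ↥N) = 1 := by
        apply MulEquiv.ext
        intro x
        apply Subtype.ext
        rw [MulAut.conjNormal_apply]
        show g * x.1 * g⁻¹ = x.1
        rw [hcomm g hg x.1 x.2, mul_inv_cancel_right]
      rw [this, map_one]
    · intro hg
      have h1 : (MulAut.conjNormal g : MulAut ↥N) = 1 := by
        apply hφ
        rw [map_one]
        exact hg
      apply hcent
      intro x hx
      have h2 := congrArg (fun e : MulAut ↥N => ((e ⟨x, hx⟩ : ↥N) : H)) h1
      simp only [MulAut.conjNormal_apply] at h2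
      have h3 : g * x * g⁻¹ = x := h2
      calc g * x = g * x * g⁻¹ * g := by group
        _ = x * g := by rw [h3]
  let f : H ⧸ N →* GL (Fin n) (ZMod p) :=
    (QuotientGroup.kerLift ψ).comp (QuotientGroup.quotientMulEquivOfEq hker).toMonoidHom
  have hf : Function.Injective f := by
    intro a b hab
    exact (QuotientGroup.quotientMulEquivOfEq hker).injective
      (QuotientGroup.kerLift_injective ψ hab)
  have hbij : Function.Bijective f := by
    apply Function.Injective.bijective_of_nat_card_le hf
    rw [← Subgroup.index_eq_card]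
    exact hindex
  exact ⟨MulEquiv.ofBijective f hbij⟩

theorem card_GL23 : Nat.card (GL (Fin 2) (ZMod 3)) = 48 := by
  rw [Matrix.card_GL_field]
  simp [Fin.prod_univ_two, ZMod.card]

end Cfsg.Agent.Lib.helper28.Crit
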