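import Cfsg.Agent.Lib.helper28.GolayM11Pair
import Cfsg.Agent.Lib.helper28.GolayMax4
import Cfsg.Agent.Lib.helper28.SimplePrime
import Cfsg.Agent.S0498

set_option autoImplicit false

namespace Cfsg.Agent.Lib.helper28

open Cfsg
open scoped Pointwise

/-! The stabiliser of a point of the complementary dodecad in the smallest Mathieu group is
simple of order 660. -/

theorem exists_other_off {d : Finset GolayPt} (hd : d ∈ dodecads) (a : GolayPt) :
    ∃ z, z ∉ d ∧ z ≠ a := by
  have hc : (dᶜ \ {a}).card ≥ 11 := by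
    have h1 := Finset.le_card_sdiff ({a} : Finset GolayPt) dᶜ
    have h2 : (dᶜ : Finset GolayPt).card = 12 := by
      rw [Finset.card_compl, hd.2]
      rfl
    rw [Finset.card_singleton] at h1
    omega
  obtain ⟨z, hz⟩ := Finset.card_pos.mp (by omega : 0 < (dᶜ \ {a}).card)
  rw [Finset.mem_sdiff, Finset.mem_compl, Finset.mem_singleton] at hz
  exact ⟨z, hz.1, hz.2⟩

theorem m11_pt_transitive {d : Finset GolayPt} (hd : d ∈ dodecads) {p : GolayPt} (hp : p ∈ d)
    {q r : GolayPt} (hq : q ∉ d) (hr : r ∉ d) : ∃ g ∈ M24, g • d = d ∧ g p = p ∧ g q = r := by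
  obtain ⟨q', hq', hqq⟩ := exists_other_off hd q
  obtain ⟨r', hr', hrr⟩ := exists_other_off hd r
  obtain ⟨g, hg, hgd, hgp, hgq, -⟩ :=
    m11_two_transitive hd hp hq hq' (Ne.symm hqq) hr hr' (Ne.symm hrr)
  exact ⟨g, hg, hgd, hgp, hgq⟩

theorem card_m11_pt {d : Finset GolayPt} (hd : d ∈ dodecads) {p q : GolayPt} (hp : p ∈ d)
    (hq : q ∉ d) :
    Nat.card ↥(MulAction.stabilizer M24 d ⊓ MulAction.stabilizer M24 p ⊓
      MulAction.stabilizer M24 q) = 660 := by
  have horb : MulAction.orbit ↥(MulAction.stabilizer M24 d ⊓ MulAction.stabilizer M24 p) q =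
      ((dᶜ : Finset GolayPt) : Set GolayPt) := by
    ext t
    rw [Finset.mem_coe, Finset.mem_compl]
    constructor
    · rintro ⟨g, rfl⟩
      have hgd : (g.1.1 : Equiv.Perm GolayPt) • d = d := g.2.1
      exact fun h => hq ((apply_mem_iff_of_smul_eq hgd q).mp h)
    · intro ht
      obtain ⟨g, hg, hgd, hgp, hgq⟩ := m11_pt_transitive hd hp hq ht
      exact ⟨⟨⟨g, hg⟩, hgd, hgp⟩, hgq⟩
  have h1 := Subgroup.card_mul_index (MulAction.stabilizer
    ↥(MulAction.stabilizer M24 d ⊓ MulAction.stabilizer M24 p) q)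
  rw [MulAction.index_stabilizer, horb, Set.ncard_coe_finset, Finset.card_compl, hd.2,
    card_stabilizer_dodecad_point hd hp] at h1
  have h2 : Fintype.card GolayPt = 24 := rfl
  rw [h2] at h1
  have e : Nat.card ↥(MulAction.stabilizer M24 d ⊓ MulAction.stabilizer M24 p ⊓
      MulAction.stabilizer M24 q) = Nat.card ↥(MulAction.stabilizer
    ↥(MulAction.stabilizer M24 d ⊓ MulAction.stabilizer M24 p) q) := by
    apply Nat.card_congr
    exact
      { toFun := fun x => ⟨⟨x.1, x.2.1⟩, x.2.2⟩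
        invFun := fun y => ⟨y.1.1, y.1.2, y.2⟩
        left_inv := fun x => rfl
        right_inv := fun y => rfl }
  rw [e]
  omega

/-- The pointwise stabiliser of two points of the complementary dodecad, as a subgroup of the
point stabiliser, is isomorphic to the alternating group of degree 5. -/
theorem m11_two_pt_alt {d : Finset GolayPt} (hd : d ∈ dodecads) {p q q' : GolayPt} (hp : p ∈ d)
    (hq : q ∉ d) (hq' : q' ∉ d) (hqq : q ≠ q') :
    Nonempty (↥(MulAction.stabilizer ↥(MulAction.stabilizer M24 d ⊓ MulAction.stabilizer M24 p ⊓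
      MulAction.stabilizer M24 q) q') ≃* ↥(alternatingGroup (Fin 5))) := by
  obtain ⟨E⟩ := m11_pair_stab_sym5 d hd p q q' hp hq hq' hqq
  have hBidx : (MulAction.stabilizer ↥(MulAction.stabilizer M24 d ⊓ MulAction.stabilizer M24 p ⊓
      MulAction.stabilizer M24 ({q, q'} : Finset GolayPt)) q).index = 2 := by
    rw [MulAction.index_stabilizer]
    have horb : MulAction.orbit ↥(MulAction.stabilizer M24 d ⊓ MulAction.stabilizer M24 p ⊓
        MulAction.stabilizer M24 ({q, q'} : Finset GolayPt)) q =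
        (({q, q'} : Finset GolayPt) : Set GolayPt) := by
      ext t
      rw [Finset.mem_coe]
      constructor
      · rintro ⟨g, rfl⟩
        have hgs : (g.1.1 : Equiv.Perm GolayPt) • ({q, q'} : Finset GolayPt) = {q, q'} := g.2.2
        exact (apply_mem_iff_of_smul_eq hgs q).mpr (Finset.mem_insert_self _ _)
      · intro ht
        rw [Finset.mem_insert, Finset.mem_singleton] at ht
        rcases ht with h | h
        · rw [h]
          exact MulAction.mem_orbit_self _
        · obtain ⟨g, hg, hgd, hgp, hgq, hgq'⟩ :=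
            m11_two_transitive hd hp hq hq' hqq hq' hq (Ne.symm hqq)
          rw [h]
          refine ⟨⟨⟨g, hg⟩, ⟨hgd, hgp⟩, ?_⟩, hgq⟩
          show g • ({q, q'} : Finset GolayPt) = {q, q'}
          rw [smul_pair_pts, hgq, hgq', Finset.pair_comm]
    rw [horb, Set.ncard_coe_finset, Finset.card_pair hqq]
  have hEB := Equiv.Perm.eq_alternatingGroup_of_index_eq_two
    (G := (MulAction.stabilizer ↥(MulAction.stabilizer M24 d ⊓ MulAction.stabilizer M24 p ⊓
      MulAction.stabilizer M24 ({q, q'} : Finset GolayPt)) q).map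
        (E : ↥(MulAction.stabilizer M24 d ⊓ MulAction.stabilizer M24 p ⊓
      MulAction.stabilizer M24 ({q, q'} : Finset GolayPt)) →* Equiv.Perm (Fin 5)))
    (by rw [Subgroup.index_map_equiv, hBidx])
  have hpair : ∀ g : ↥(MulAction.stabilizer ↥(MulAction.stabilizer M24 d ⊓
      MulAction.stabilizer M24 p ⊓ MulAction.stabilizer M24 q) q'),
      g.1.1 ∈ MulAction.stabilizer M24 ({q, q'} : Finset GolayPt) := by
    intro g
    have h1 : (g.1.1.1 : Equiv.Perm GolayPt) q = q := g.1.2.2
    have h2 : (g.1.1.1 : Equiv.Perm GolayPt) q' = q' := g.2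
    show (g.1.1.1 : Equiv.Perm GolayPt) • ({q, q'} : Finset GolayPt) = {q, q'}
    rw [smul_pair_pts, h1, h2]
  have hfix : ∀ b : ↥(MulAction.stabilizer ↥(MulAction.stabilizer M24 d ⊓
      MulAction.stabilizer M24 p ⊓ MulAction.stabilizer M24 ({q, q'} : Finset GolayPt)) q),
      (⟨b.1.1, ⟨b.1.2.1, b.2⟩⟩ : ↥(MulAction.stabilizer M24 d ⊓ MulAction.stabilizer M24 p ⊓
        MulAction.stabilizer M24 q)) ∈ MulAction.stabilizer ↥(MulAction.stabilizer M24 d ⊓
          MulAction.stabilizer M24 p ⊓ MulAction.stabilizer M24 q) q' := by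
    intro b
    have h1 : (b.1.1.1 : Equiv.Perm GolayPt) q = q := b.2
    have hs : (b.1.1.1 : Equiv.Perm GolayPt) • ({q, q'} : Finset GolayPt) = {q, q'} := b.1.2.2
    show (b.1.1.1 : Equiv.Perm GolayPt) q' = q'
    have h3 : (b.1.1.1 : Equiv.Perm GolayPt) q' ∈ ({q, q'} : Finset GolayPt) :=
      (apply_mem_iff_of_smul_eq hs q').mpr
        (Finset.mem_insert_of_mem (Finset.mem_singleton_self _))
    rw [Finset.mem_insert, Finset.mem_singleton] at h3
    rcases h3 with h3 | h3
    · exact absurd ((b.1.1.1 : Equiv.Perm GolayPt).injective (h3.trans h1.symm)) (Ne.symm hqq)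
    · exact h3
  refine ⟨MulEquiv.trans ?_ ((E.subgroupMap _).trans (MulEquiv.subgroupCongr hEB))⟩
  exact
    { toFun := fun g => ⟨⟨g.1.1, ⟨g.1.2.1, hpair g⟩⟩, g.1.2.2⟩
      invFun := fun b => ⟨⟨b.1.1, ⟨b.1.2.1, b.2⟩⟩, hfix b⟩
      left_inv := fun _ => rfl
      right_inv := fun _ => rfl
      map_mul' := fun _ _ => rfl }

/-- The stabiliser of a point of the complementary dodecad in the smallest Mathieu group is a
simple group. -/
theorem m11_pt_simple {d : Finset GolayPt} (hd : d ∈ dodecads) {p q : GolayPt} (hp : p ∈ d)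
    (hq : q ∉ d) :
    IsSimpleGroup ↥(MulAction.stabilizer M24 d ⊓ MulAction.stabilizer M24 p ⊓
      MulAction.stabilizer M24 q) := by
  obtain ⟨q', hq', hqq'⟩ := exists_other_off hd q
  obtain ⟨e⟩ := m11_two_pt_alt hd hp hq hq' (Ne.symm hqq')
  haveI : IsSimpleGroup ↥(MulAction.stabilizer ↥(MulAction.stabilizer M24 d ⊓
      MulAction.stabilizer M24 p ⊓ MulAction.stabilizer M24 q) q') :=
    e.isSimpleGroup_congr.mpr (alternatingGroup.isSimpleGroup (by simp))
  have hidx : (MulAction.stabilizer ↥(MulAction.stabilizer M24 d ⊓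
      MulAction.stabilizer M24 p ⊓ MulAction.stabilizer M24 q) q').index = 11 := by
    rw [MulAction.index_stabilizer]
    have horb : MulAction.orbit ↥(MulAction.stabilizer M24 d ⊓
        MulAction.stabilizer M24 p ⊓ MulAction.stabilizer M24 q) q' =
        ((dᶜ.erase q : Finset GolayPt) : Set GolayPt) := by
      ext t
      rw [Finset.mem_coe, Finset.mem_erase, Finset.mem_compl]
      constructor
      · rintro ⟨g, rfl⟩
        have hgd : (g.1.1 : Equiv.Perm GolayPt) • d = d := g.2.1.1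
        have hgq : (g.1.1 : Equiv.Perm GolayPt) q = q := g.2.2
        refine ⟨?_, fun h => hq' ((apply_mem_iff_of_smul_eq hgd q').mp h)⟩
        intro h
        exact hqq' ((g.1.1 : Equiv.Perm GolayPt).injective (h.trans hgq.symm))
      · rintro ⟨htq, htd⟩
        obtain ⟨g, hg, hgd, hgp, hgq, hgq'⟩ :=
          m11_two_transitive hd hp hq hq' (Ne.symm hqq') hq htd (Ne.symm htq)
        exact ⟨⟨⟨g, hg⟩, ⟨hgd, hgp⟩, hgq⟩, hgq'⟩
    rw [horb, Set.ncard_coe_finset, Finset.card_erase_of_mem (Finset.mem_compl.mpr hq),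
      Finset.card_compl, hd.2]
    rfl
  have hcore : (MulAction.stabilizer ↥(MulAction.stabilizer M24 d ⊓
      MulAction.stabilizer M24 p ⊓ MulAction.stabilizer M24 q) q').normalCore = ⊥ := by
    rw [eq_bot_iff]
    intro g hg
    rw [Subgroup.mem_bot]
    apply Subtype.ext
    apply Subtype.ext
    have hgd : (g.1.1 : Equiv.Perm GolayPt) • d = d := g.2.1.1
    have hgdc : (g.1.1 : Equiv.Perm GolayPt) • dᶜ = dᶜ := by
      ext t
      rw [← Finset.inv_smul_mem_iff, Finset.mem_compl, Finset.mem_compl,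
        Finset.inv_smul_mem_iff, hgd]
    apply m12_eq_one_of_fix (compl_mem_dodecads hd) dᶜ
      (by rw [(compl_mem_dodecads hd).2]; norm_num) subset_rfl g.1.1 g.1.2 hgdc
    intro t ht
    rw [Finset.mem_compl] at ht
    by_cases htq : t = q
    · rw [htq]
      exact g.2.2
    · obtain ⟨b, hb, hbd, hbp, hbq, hbt⟩ :=
        m11_two_transitive hd hp hq ht (Ne.symm htq) hq hq' (Ne.symm hqq')
      have h1 := hg ⟨⟨b, hb⟩, ⟨hbd, hbp⟩, hbq⟩
      have h2 : b ((g.1.1 : Equiv.Perm GolayPt) (b⁻¹ q')) = q' := h1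
      have h3 : b⁻¹ q' = t := by rw [Equiv.Perm.inv_eq_iff_eq, hbt]
      rw [h3] at h2
      exact b.injective (h2.trans hbt.symm)
  have hc60 : Nat.card ↥(MulAction.stabilizer ↥(MulAction.stabilizer M24 d ⊓
      MulAction.stabilizer M24 p ⊓ MulAction.stabilizer M24 q) q') = 60 := by
    have h := Subgroup.card_mul_index (MulAction.stabilizer ↥(MulAction.stabilizer M24 d ⊓
      MulAction.stabilizer M24 p ⊓ MulAction.stabilizer M24 q) q')
    rw [hidx, card_m11_pt hd hp hq] at h
    omega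
  exact Crit.simple_of_prime_index (MulAction.stabilizer ↥(MulAction.stabilizer M24 d ⊓
      MulAction.stabilizer M24 p ⊓ MulAction.stabilizer M24 q) q') 11 (by norm_num) hidx hcore
    (by rw [hc60]; norm_num)

/-- S1601. -/
theorem m11_pt_psl (d : Finset GolayPt) (hd : d ∈ dodecads) (p q : GolayPt) (hp : p ∈ d)
    (hq : q ∉ d) :
    Nonempty (↥(MulAction.stabilizer M24 d ⊓ MulAction.stabilizer M24 p ⊓
      MulAction.stabilizer M24 q) ≃* Matrix.ProjectiveSpecialLinearGroup (Fin 2) (ZMod 11)) := by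
  haveI := m11_pt_simple hd hp hq
  haveI : Fact (Nat.Prime 11) := ⟨by norm_num⟩
  exact Cfsg.Agent.S0498.result 11 (Or.inl rfl) (by rw [card_m11_pt hd hp hq]; norm_num)
    (F := ZMod 11) (ZMod.card 11)

end Cfsg.Agent.Lib.helper28
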